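import Mathlib
import Cfsg.Agent.Tr.Hyperfocal

set_option autoImplicit false

namespace Cfsg.Agent.Tr

open Cfsg Cfsg.Agent.H12
open scoped commutatorElement

variable {G : Type*} [Group G]

/-- A subgroup of `Z(P)` weakly closed in all Sylow subgroups containing it: its normalizer controls strong fusion. -/
theorem control_of_weaklyClosed_central [Finite G] {p : ℕ} [Fact p.Prime] (P : Sylow p G) (Z : Subgroup G)
    (hZP : Z ≤ P) (hZc : Z ≤ Subgroup.centralizer ((P : Subgroup G) : Set G))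
    (hwc : ∀ (w : G) (P₁ : Sylow p G), Z ≤ P₁ → Z.map (MulAut.conj w).toMonoidHom ≤ P₁ →
      Z.map (MulAut.conj w).toMonoidHom = Z)
    (Q : Subgroup G) (hQ : Q ≤ P) (g : G) (hg : Q.map (MulAut.conj g).toMonoidHom ≤ P) :
    ∃ n ∈ Subgroup.normalizer (Z : Set G), ∀ x ∈ Q, n * x * n⁻¹ = g * x * g⁻¹ := by
  have hZp : IsPGroup p Z := P.2.to_le hZP
  have h1 : Z ≤ Subgroup.centralizer (Q : Set G) :=
    hZc.trans (Subgroup.centralizer_le (fun x hx => hQ hx))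
  have h2 : Z.map (MulAut.conj g⁻¹).toMonoidHom ≤ Subgroup.centralizer (Q : Set G) := by
    rintro _ ⟨z, hz, rfl⟩
    rw [Subgroup.mem_centralizer_iff]
    intro x hx
    have h3 := Subgroup.mem_centralizer_iff.mp (hZc hz) (g * x * g⁻¹) (hg (conj_mem_map_conj hx))
    show x * (g⁻¹ * z * g⁻¹⁻¹) = g⁻¹ * z * g⁻¹⁻¹ * x
    calc x * (g⁻¹ * z * g⁻¹⁻¹) = g⁻¹ * (g * x * g⁻¹ * z) * g := by group
      _ = g⁻¹ * (z * (g * x * g⁻¹)) * g := by rw [h3]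
      _ = g⁻¹ * z * g⁻¹⁻¹ * x := by group
  obtain ⟨R, hZR, hRC, hR, hidx⟩ := exists_sylow_rel h1 hZp
  obtain ⟨c, hc, hle⟩ := exists_conj_le_of_relIndex hRC hR hidx h2 (isPGroup_map_conj hZp _)
  obtain ⟨P₁, hP₁⟩ := hR.exists_le_sylow
  rw [map_conj_mul] at hle
  have h4 := hwc (c * g⁻¹) P₁ (hZR.trans hP₁) (hle.trans hP₁)
  have h5 : c * g⁻¹ ∈ Subgroup.normalizer (Z : Set G) := Subgroup.mem_normalizer_iff_map_conj_eq.mpr h4
  refine ⟨(c * g⁻¹)⁻¹, inv_mem h5, fun x hx => ?_⟩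
  have h6 := Subgroup.mem_centralizer_iff.mp hc x hx
  calc (c * g⁻¹)⁻¹ * x * (c * g⁻¹)⁻¹⁻¹ = g * (c⁻¹ * (x * c)) * g⁻¹ := by group
    _ = g * (c⁻¹ * (c * x)) * g⁻¹ := by rw [h6]
    _ = g * x * g⁻¹ := by group

/-- replace `n` by a `p'`-power with the same action on `Q`. -/
lemma exists_pprime_agree [Finite G] {p : ℕ} [hp : Fact p.Prime] {Q : Subgroup G} {g n : G}
    (hg : g ∈ Subgroup.normalizer (Q : Set G)) (hco : (orderOf g).Coprime p)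
    (e : ∀ x ∈ Q, n * x * n⁻¹ = g * x * g⁻¹) :
    ∃ k : ℕ, (orderOf (n ^ k)).Coprime p ∧ ∀ x ∈ Q, n ^ k * x * (n ^ k)⁻¹ = g * x * g⁻¹ := by
  have hgQ : ∀ a ∈ Q, g * a * g⁻¹ ∈ Q := fun a ha => (Subgroup.mem_normalizer_iff.mp hg a).mp ha
  have it : ∀ j : ℕ, ∀ a ∈ Q, n ^ j * a * (n ^ j)⁻¹ = g ^ j * a * (g ^ j)⁻¹ ∧ g ^ j * a * (g ^ j)⁻¹ ∈ Q := by
    intro j
    induction j with
    | zero => intro a ha; simpa using ha
    | succ j ih =>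
      intro a ha
      obtain ⟨h1, h2⟩ := ih a ha
      have h3 := e _ h2
      have e1 : n ^ (j + 1) * a * (n ^ (j + 1))⁻¹ = n * (n ^ j * a * (n ^ j)⁻¹) * n⁻¹ := by
        rw [pow_succ']; group
      have e2 : g ^ (j + 1) * a * (g ^ (j + 1))⁻¹ = g * (g ^ j * a * (g ^ j)⁻¹) * g⁻¹ := by
        rw [pow_succ']; group
      rw [e1, e2, h1]
      exact ⟨h3, hgQ _ h2⟩
  obtain ⟨a, m, hm, ham⟩ := Nat.exists_eq_pow_mul_and_not_dvd (orderOf_pos n).ne' p hp.out.one_lt.ne'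
  obtain ⟨t, ht⟩ := exists_pow_eq_self_of_coprime (hco.pow_right a).symm
  refine ⟨p ^ a * t, ?_, fun x hx => ?_⟩
  · have h1 : (n ^ (p ^ a * t)) ^ m = 1 := by
      rw [← pow_mul, mul_right_comm, pow_mul, ← ham, pow_orderOf_eq_one, one_pow]
    exact Nat.Coprime.coprime_dvd_left (orderOf_dvd_of_pow_eq_one h1)
      ((Nat.Prime.coprime_iff_not_dvd hp.out).mpr hm).symm
  · rw [(it _ x hx).1, pow_mul, ht]

lemma map_pResidual_le' {p : ℕ} (V : Subgroup G) : (pResidual p V).map V.subtype ≤ pResidual p G := by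
  unfold pResidual
  rw [MonoidHom.map_closure, Subgroup.closure_le]
  rintro _ ⟨y, hy, rfl⟩
  apply Subgroup.subset_closure
  show (orderOf (y : G)).Coprime p
  rw [Subgroup.orderOf_coe]; exact hy

/-- If `V ≥ P` controls strong fusion in `P` then `P ∩ O^p(G) = P ∩ O^p(V)`. -/
theorem inf_pResidual_eq_of_control [Finite G] {p : ℕ} [Fact p.Prime] (P : Sylow p G) (V : Subgroup G)
    (hPV : (P : Subgroup G) ≤ V)
    (hctl : ∀ Q : Subgroup G, Q ≤ P → ∀ g : G, Q.map (MulAut.conj g).toMonoidHom ≤ P →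
      ∃ n ∈ V, ∀ x ∈ Q, n * x * n⁻¹ = g * x * g⁻¹) :
    (P : Subgroup G) ⊓ pResidual p G = (P : Subgroup G) ⊓ (pResidual p V).map V.subtype := by
  apply le_antisymm _ (inf_le_inf_left _ (map_pResidual_le' V))
  refine le_inf inf_le_left ?_
  rw [sylow_inf_pResidual_eq_hyp, hyp, Subgroup.closure_le]
  rintro _ ⟨Q, hQ, g, hg, hco, x, hx, rfl⟩
  obtain ⟨n, hn, e⟩ := hctl Q hQ g (by
    have : Q.map (MulAut.conj g).toMonoidHom = Q := Subgroup.mem_normalizer_iff_map_conj_eq.mp hg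
    rw [this]; exact hQ)
  obtain ⟨k, hk, e2⟩ := exists_pprime_agree hg hco e
  rw [← e2 x hx]
  have hv : n ^ k ∈ V := pow_mem hn k
  have hxV : x ∈ V := hPV (hQ hx)
  have hvK : (⟨n ^ k, hv⟩ : V) ∈ pResidual p V := mem_pResidual (by rwa [← Subgroup.orderOf_coe])
  refine ⟨(⟨x, hxV⟩ : V)⁻¹ * (⟨n ^ k, hv⟩ * ⟨x, hxV⟩ * (⟨n ^ k, hv⟩ : V)⁻¹), ?_, rfl⟩
  have : (⟨x, hxV⟩ : V)⁻¹ * (⟨n ^ k, hv⟩ * ⟨x, hxV⟩ * (⟨n ^ k, hv⟩ : V)⁻¹) =
      ((⟨x, hxV⟩ : V)⁻¹ * ⟨n ^ k, hv⟩ * (⟨x, hxV⟩ : V)⁻¹⁻¹) * (⟨n ^ k, hv⟩ : V)⁻¹ := by group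
  rw [SetLike.mem_coe, this]
  exact (pResidual p V).mul_mem ((pResidual_normal p V).conj_mem _ hvK _) ((pResidual p V).inv_mem hvK)

end Cfsg.Agent.Tr
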