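import Mathlib

set_option autoImplicit false

/-! Action on Sylow subgroups of prime order: kernel lemmas (lead). -/

namespace Cfsg.Agent.Tr.Syl3

variable {G : Type*} [Group G] [Finite G]

omit [Finite G] in
theorem smul_eq_of_mem_ker {p : ℕ} {x : G} (hx : x ∈ (MulAction.toPermHom G (Sylow p G)).ker)
    (P : Sylow p G) : x • P = P := by
  have := congrArg (fun f => f P) (MonoidHom.mem_ker.1 hx)
  simpa using this

theorem ker_le_normalizer {p : ℕ} (P : Sylow p G) :
    (MulAction.toPermHom G (Sylow p G)).ker ≤ Subgroup.normalizer ((P : Subgroup G) : Set G) :=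
  fun _ hx => Sylow.smul_eq_iff_mem_normalizer.1 (smul_eq_of_mem_ker hx P)

/-- a `p`-element in the kernel of the action on Sylow `p`-subgroups lies in every one of them. -/
theorem mem_sylow_of_mem_ker {p : ℕ} {x : G} (hx : x ∈ (MulAction.toPermHom G (Sylow p G)).ker)
    (hp : IsPGroup p (Subgroup.zpowers x)) (P : Sylow p G) : x ∈ (P : Subgroup G) := by
  have h2 := ker_le_normalizer P hx
  have h3 := hp.inf_normalizer_sylow P
  have h4 : x ∈ Subgroup.zpowers x ⊓ Subgroup.normalizer ((P : Subgroup G) : Set G) :=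
    ⟨Subgroup.mem_zpowers x, h2⟩
  have h5 : x ∈ Subgroup.zpowers x ⊓ (P : Subgroup G) := h3 ▸ h4
  exact h5.2

theorem not_dvd_card_ker {p : ℕ} [hp : Fact p.Prime] (hP : ∀ P : Sylow p G, Nat.card P = p)
    (hn : Nat.card (Sylow p G) ≠ 1) : ¬ p ∣ Nat.card (MulAction.toPermHom G (Sylow p G)).ker := by
  intro hd
  obtain ⟨x, hx⟩ := exists_prime_orderOf_dvd_card' p hd
  have hy : orderOf (x : G) = p := by rw [Subgroup.orderOf_coe, hx]
  have hcard : Nat.card (Subgroup.zpowers (x : G)) = p := by rw [Nat.card_zpowers, hy]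
  have hpg : IsPGroup p (Subgroup.zpowers (x : G)) := IsPGroup.of_card (n := 1) (by rw [hcard, pow_one])
  have hall : ∀ P : Sylow p G, (P : Subgroup G) = Subgroup.zpowers (x : G) := by
    intro P
    have h1 : Subgroup.zpowers (x : G) ≤ P := Subgroup.zpowers_le.2 (mem_sylow_of_mem_ker x.2 hpg P)
    exact (Subgroup.eq_of_le_of_card_ge h1 (by rw [hcard, hP P])).symm
  apply hn
  have : Subsingleton (Sylow p G) := ⟨fun P Q => Sylow.ext ((hall P).trans (hall Q).symm)⟩
  have : Nonempty (Sylow p G) := inferInstance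
  exact Nat.card_eq_one_iff_unique.2 ⟨inferInstance, inferInstance⟩

/-- a normal subgroup of order 3 is centralized by a subgroup of index at most 2:
if `4 ∣ |G|` some involution centralizes it. -/
theorem exists_involution_commute (N : Subgroup G) [N.Normal] (hN : Nat.card N = 3) (h4 : 4 ∣ Nat.card G) :
    ∃ t : G, orderOf t = 2 ∧ ∀ x ∈ N, t * x = x * t := by
  have : Fact (Nat.Prime 2) := ⟨Nat.prime_two⟩
  have : Fact (Nat.Prime 3) := ⟨Nat.prime_three⟩
  have hcyc : IsCyclic N := isCyclic_of_prime_card hN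
  have haut : Nat.card (MulAut N) = 2 := by
    rw [IsCyclic.card_mulAut, hN]; decide
  let ψ : G →* MulAut N := MulAut.conjNormal
  have h1 : Nat.card ψ.range ∣ 2 := by
    rw [← haut]; exact Subgroup.card_subgroup_dvd_card _
  have h2 : ψ.ker.index = Nat.card ψ.range := Subgroup.index_ker ψ
  have h3 := ψ.ker.card_mul_index
  have h5 : 2 ∣ Nat.card ψ.ker := by
    rw [h2] at h3
    obtain ⟨k, hk⟩ := h4
    have h6 : Nat.card ψ.range = 1 ∨ Nat.card ψ.range = 2 := (Nat.dvd_prime Nat.prime_two).1 h1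
    rcases h6 with h6 | h6 <;> rw [h6] at h3 <;> omega
  obtain ⟨t, ht⟩ := exists_prime_orderOf_dvd_card' 2 h5
  refine ⟨t, by rw [Subgroup.orderOf_coe, ht], ?_⟩
  intro x hx
  have h7 : ψ (t : G) = 1 := t.2
  have h8 := congrArg (fun f => ((f ⟨x, hx⟩ : N) : G)) h7
  simp only [ψ, MulAut.conjNormal_apply, MulAut.one_apply] at h8
  calc (t : G) * x = ((t : G) * x * (t : G)⁻¹) * t := by group
    _ = x * t := by rw [h8]

end Cfsg.Agent.Tr.Syl3
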