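import Mathlib
import Cfsg.Agent.Tr.Kaz3
import Cfsg.Agent.H9.Cores
import Cfsg.Agent.H1.Fit

/-! Consequences of Kazarin's theorem: conjugates of an element with `p`-power class size commute
modulo `O_p(G)`. -/

set_option autoImplicit false

namespace Cfsg.Agent.Tr.Kaz

open Subgroup

universe u

variable {G : Type u} [Group G] [Finite G]

theorem fitting_le_centralizer_of_pCore_eq_bot {p : ℕ} (hp : p.Prime)
    (hc : Cfsg.pCore p G = ⊥) (x : G) (a : ℕ)
    (hidx : (centralizer ({x} : Set G)).index = p ^ a) :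
    Cfsg.fittingSubgroup G ≤ centralizer ({x} : Set G) := by
  rw [Cfsg.H1.fitting_eq_iSup_pCore]
  apply iSup_le
  intro q
  by_cases hq : (q : ℕ) = p
  · rw [hq, hc]; exact bot_le
  · have := Cfsg.H1.pCore_normal (G := G) (q : ℕ)
    refine Cfsg.Agent.H4.le_of_normal_coprime_of_index_pow _ _ ?_ hidx
    have : Fact (q : ℕ).Prime := ⟨q.2⟩
    obtain ⟨n, hn⟩ := (IsPGroup.iff_card).1 (Cfsg.H1.pCore_isPGroup (G := G) (q : ℕ))
    rw [hn]
    exact Nat.Coprime.pow_left n ((Nat.coprime_primes q.2 hp).2 hq)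

theorem normalClosure_comm_of_pCore_eq_bot {p : ℕ} (hp : p.Prime)
    (hc : Cfsg.pCore p G = ⊥) (x : G) (a : ℕ)
    (hidx : (centralizer ({x} : Set G)).index = p ^ a) :
    ∀ y ∈ normalClosure ({x} : Set G), ∀ z ∈ normalClosure ({x} : Set G), y * z = z * y := by
  have hsol := kazarin hp x a hidx
  have h1 := fitting_le_centralizer_of_pCore_eq_bot hp hc x a hidx
  have hFn : (Cfsg.fittingSubgroup G).Normal := inferInstance
  have h2 : normalClosure ({x} : Set G) ≤ centralizer (Cfsg.fittingSubgroup G : Set G) := by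
    apply normalClosure_le_normal
    rw [Set.singleton_subset_iff, SetLike.mem_coe, mem_centralizer_iff]
    intro f hf
    have := h1 hf
    rw [mem_centralizer_singleton_iff] at this
    exact this
  have h3 : normalClosure ({x} : Set G) ≤ Cfsg.fittingSubgroup G := by
    intro n hn
    have h4 : (⟨n, hn⟩ : normalClosure ({x} : Set G)) ∈
        Cfsg.fittingSubgroup (normalClosure ({x} : Set G)) := by
      apply Cfsg.H1.centralizer_fitting_le
      rw [mem_centralizer_iff]
      intro f hf
      have h5 : (f : G) ∈ (Cfsg.fittingSubgroup (normalClosure ({x} : Set G))).map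
          (normalClosure ({x} : Set G)).subtype := ⟨f, hf, rfl⟩
      rw [Cfsg.H9.map_fitting_subnormal (Subgroup.Normal.isSubnormal normalClosure_normal)] at h5
      have h6 := h2 hn
      rw [mem_centralizer_iff] at h6
      exact Subtype.ext (h6 _ h5.1)
    have h5 : n ∈ (Cfsg.fittingSubgroup (normalClosure ({x} : Set G))).map
          (normalClosure ({x} : Set G)).subtype := ⟨_, h4, rfl⟩
    rw [Cfsg.H9.map_fitting_subnormal (Subgroup.Normal.isSubnormal normalClosure_normal)] at h5
    exact h5.1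
  intro y hy z hz
  have h6 := h2 hz
  rw [mem_centralizer_iff] at h6
  exact h6 y (h3 hy)

theorem index_centralizer_quotient {p : ℕ} (hp : p.Prime) (N : Subgroup G) [N.Normal] (x : G) (a : ℕ)
    (hidx : (centralizer ({x} : Set G)).index = p ^ a) :
    ∃ a' : ℕ, (centralizer ({(x : G ⧸ N)} : Set (G ⧸ N))).index = p ^ a' := by
  have h1 : (centralizer ({x} : Set G)).map (QuotientGroup.mk' N) ≤
      centralizer ({(x : G ⧸ N)} : Set (G ⧸ N)) := by
    rintro _ ⟨c, hc, rfl⟩
    simp only [SetLike.mem_coe, mem_centralizer_iff, Set.mem_singleton_iff, forall_eq] at hc ⊢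
    simp only [QuotientGroup.mk'_apply]
    rw [← QuotientGroup.mk_mul, ← QuotientGroup.mk_mul, hc]
  have h2 : (centralizer ({(x : G ⧸ N)} : Set (G ⧸ N))).index ∣ p ^ a := by
    rw [← hidx]
    exact (index_dvd_of_le h1).trans (index_map_dvd _ (QuotientGroup.mk'_surjective N))
  obtain ⟨j, _, hj⟩ := (Nat.dvd_prime_pow hp).1 h2
  exact ⟨j, hj⟩

/-- conjugates of `x` commute modulo `O_p(G)` -/
theorem normalClosure_comm_mod_pCore {p : ℕ} [Fact p.Prime] (x : G) (a : ℕ)
    (hidx : (centralizer ({x} : Set G)).index = p ^ a) :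
    ∀ y ∈ normalClosure ({x} : Set G), ∀ z ∈ normalClosure ({x} : Set G),
      y * z * y⁻¹ * z⁻¹ ∈ Cfsg.pCore p G := by
  have hp : p.Prime := Fact.out
  have hn := Cfsg.H1.pCore_normal (G := G) p
  obtain ⟨a', ha'⟩ := index_centralizer_quotient hp (Cfsg.pCore p G) x a hidx
  have key := normalClosure_comm_of_pCore_eq_bot hp (Cfsg.Agent.H4.pCore_quotient_pCore p) _ a' ha'
  have hmap : ∀ y ∈ normalClosure ({x} : Set G),
      (y : G ⧸ Cfsg.pCore p G) ∈ normalClosure ({(x : G ⧸ Cfsg.pCore p G)} : Set (G ⧸ Cfsg.pCore p G)) := by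
    have : normalClosure ({x} : Set G) ≤
        (normalClosure ({(x : G ⧸ Cfsg.pCore p G)} : Set (G ⧸ Cfsg.pCore p G))).comap
          (QuotientGroup.mk' (Cfsg.pCore p G)) := by
      apply normalClosure_le_normal
      rw [Set.singleton_subset_iff]
      exact subset_normalClosure (Set.mem_singleton _)
    exact fun y hy => this hy
  intro y hy z hz
  rw [← QuotientGroup.eq_one_iff]
  have := key _ (hmap y hy) _ (hmap z hz)
  simp only [QuotientGroup.mk_mul, QuotientGroup.mk_inv]
  rw [this]; group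

end Cfsg.Agent.Tr.Kaz
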