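import Mathlib
import Cfsg.Agent.Lib.Helper8.ZS10
import Cfsg.Agent.Lib.Helper8.AbelianSylow

/-! A 2-automorphism centralizing an abelian Sylow 2-subgroup is inner (via Glauberman's `Z*`). -/

set_option autoImplicit false

namespace Cfsg.Agent.Tr.ZAut

open Subgroup Cfsg Cfsg.Agent.Lib.Helper8 Cfsg.Agent.Lib.Helper8.ZS

universe u

/-- An element of an abelian Sylow `2`-subgroup that is centralized by its normalizer is trivial, if
`O(Γ) = 1` and `Γ` has trivial centre. -/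
theorem eq_one_of_invariant {Γ : Type u} [Group Γ] [Finite Γ] (S : Sylow 2 Γ)
    [IsMulCommutative (S : Subgroup Γ)] (hcore : pPrimeCore 2 Γ = ⊥) (hZ : center Γ = ⊥)
    (c : Γ) (hcS : c ∈ S)
    (hinv : ∀ n ∈ normalizer ((S : Subgroup Γ) : Set Γ), n⁻¹ * c * n = c) : c = 1 := by
  haveI : Fact (Nat.Prime 2) := ⟨Nat.prime_two⟩
  by_contra hc1
  obtain ⟨k, hk⟩ := (IsPGroup.iff_orderOf.mp S.2) ⟨c, hcS⟩
  rw [Subgroup.orderOf_mk] at hk
  have hk0 : k ≠ 0 := by
    intro h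
    rw [h, pow_zero, orderOf_eq_one_iff] at hk
    exact hc1 hk
  obtain ⟨j, rfl⟩ := Nat.exists_eq_succ_of_ne_zero hk0
  set z := c ^ (2 ^ j) with hz
  have hzo : orderOf z = 2 := by
    rw [hz, orderOf_pow_of_dvd (pow_ne_zero _ two_ne_zero) (by rw [hk]; exact pow_dvd_pow 2 (Nat.le_succ j)),
      hk, pow_succ, Nat.mul_div_cancel_left _ (pow_pos two_pos j)]
  have hzS : z ∈ S := Subgroup.pow_mem _ hcS _
  have hzinv : ∀ n ∈ normalizer ((S : Subgroup Γ) : Set Γ), n⁻¹ * z * n = z := by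
    intro n hn
    have : n⁻¹ * c ^ (2 ^ j) * n = (n⁻¹ * c * n) ^ (2 ^ j) := by
      have := conj_pow (a := n⁻¹) (b := c) (i := 2 ^ j)
      simpa using this.symm
    rw [hz, this, hinv n hn]
  have hiso : IsIsolatedInvolution z := by
    apply iso_of_sylow S z hzo
    intro g hg
    obtain ⟨n, hn, h⟩ := S.conj_eq_normalizer_conj_of_mem z g⁻¹ hzS (by simpa using hg)
    rw [inv_inv] at h
    rw [h, hzinv n hn]
  have hcen : z ∈ center Γ := by
    rw [mem_center_iff]
    intro g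
    have := zstar hiso g
    rw [hcore, mem_bot] at this
    have h2 : z * g = g * z := by
      calc z * g = (z * g * z⁻¹ * g⁻¹) * (g * z) := by group
        _ = g * z := by rw [this, one_mul]
    exact h2.symm
  rw [hZ, mem_bot] at hcen
  rw [hcen, orderOf_one] at hzo
  norm_num at hzo

theorem conj_range_normal (G : Type u) [Group G] : (MulAut.conj : G →* MulAut G).range.Normal := by
  refine ⟨?_⟩
  rintro _ ⟨g, rfl⟩ φ
  refine ⟨φ g, ?_⟩
  ext x
  simp

theorem inner_of_fix_sylow {G : Type u} [Group G] [Finite G] (hZ : center G = ⊥)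
    (hcore : pPrimeCore 2 G = ⊥) (P : Sylow 2 G) (hab : IsMulCommutative (P : Subgroup G))
    (α : MulAut G) (h2 : ∃ j : ℕ, orderOf α = 2 ^ j) (hfix : ∀ x ∈ (P : Subgroup G), α x = x) :
    ∃ g : G, ∀ x : G, α x = g * x * g⁻¹ := by
  haveI : Fact (Nat.Prime 2) := ⟨Nat.prime_two⟩
  haveI hIn := conj_range_normal G
  obtain ⟨j, hj⟩ := h2
  -- the group Γ
  let Γ : Subgroup (MulAut G) := (MulAut.conj : G →* MulAut G).range ⊔ zpowers α
  let a : Γ := ⟨α, mem_sup_right (mem_zpowers α)⟩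
  let ι : G →* Γ := (MulAut.conj : G →* MulAut G).codRestrict Γ (fun g => mem_sup_left ⟨g, rfl⟩)
  have hι : ∀ g x, (ι g : MulAut G) x = g * x * g⁻¹ := fun g x => rfl
  have hιinj : Function.Injective ι := by
    rw [injective_iff_map_eq_one]
    intro g hg
    have : g ∈ center G := by
      rw [mem_center_iff]
      intro x
      have h1 := hι g x
      rw [hg] at h1
      have h3 : x = g * x * g⁻¹ := h1
      calc x * g = g * x * g⁻¹ * g := by rw [← h3]
        _ = g * x := by group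
    rwa [hZ, mem_bot] at this
  have hconj : ∀ (γ : Γ) (g : G), γ * ι g * γ⁻¹ = ι ((γ : MulAut G) g) := by
    intro γ g
    apply Subtype.ext
    ext x
    simp [ι]
  have hdec : ∀ γ : Γ, ∃ (g : G) (n : ℤ), γ = ι g * a ^ n := by
    intro γ
    have h1 : (γ : MulAut G) ∈ ((MulAut.conj : G →* MulAut G).range ⊔ zpowers α : Subgroup (MulAut G)) := γ.2
    rw [← SetLike.mem_coe, normal_mul, Set.mem_mul] at h1
    obtain ⟨_, ⟨g, rfl⟩, _, ⟨n, rfl⟩, h⟩ := h1
    exact ⟨g, n, Subtype.ext (by simp [ι, a, ← h])⟩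
  have haj : a ^ 2 ^ j = 1 := by
    apply Subtype.ext
    simp only [a, SubmonoidClass.mk_pow, OneMemClass.coe_one]
    rw [← hj]; exact pow_orderOf_eq_one α
  have hcomm : ∀ u ∈ (P : Subgroup G), Commute a (ι u) := by
    intro u hu
    have h1 := hconj a u
    have h3 : ((a : Γ) : MulAut G) u = u := hfix u hu
    rw [h3] at h1
    exact (mul_inv_eq_iff_eq_mul.mp h1)
  haveI hIΓ : ι.range.Normal := by
    refine ⟨?_⟩
    rintro _ ⟨g, rfl⟩ γ
    exact ⟨_, (hconj γ g).symm⟩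
  -- centre and core of Γ
  have hZΓ : center Γ = ⊥ := by
    rw [eq_bot_iff]
    intro z hz
    rw [mem_center_iff] at hz
    rw [mem_bot]
    apply Subtype.ext
    ext g
    have h1 := hconj z g
    rw [← hz (ι g), mul_inv_cancel_right] at h1
    exact (hιinj h1).symm
  have hq : ∀ γ : Γ, Odd (orderOf γ) → γ ∈ ι.range := by
    intro γ hodd
    obtain ⟨g, n, rfl⟩ := hdec γ
    rw [← QuotientGroup.eq_one_iff]
    set y : Γ ⧸ ι.range := ((ι g * a ^ n : Γ) : Γ ⧸ ι.range) with hy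
    have h1 : y ^ (2 ^ j) = 1 := by
      have h3 : y = (a : Γ ⧸ ι.range) ^ n := by
        rw [hy, QuotientGroup.mk_mul, (QuotientGroup.eq_one_iff (N := ι.range) (ι g)).mpr ⟨g, rfl⟩, one_mul,
          QuotientGroup.mk_zpow]
      rw [h3, ← zpow_natCast, ← zpow_mul, mul_comm, zpow_mul, zpow_natCast, ← QuotientGroup.mk_pow, haj]
      simp
    have h4 : y ^ orderOf (ι g * a ^ n) = 1 := by
      rw [hy, ← QuotientGroup.mk_pow, pow_orderOf_eq_one]; rfl
    have hcop : Nat.Coprime (2 ^ j) (orderOf (ι g * a ^ n)) :=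
      Nat.Coprime.pow_left j (Nat.coprime_two_left.mpr hodd)
    exact eq_one_of_pow_coprime hcop h1 h4
  have hcoreΓ : pPrimeCore 2 Γ = ⊥ := by
    rw [eq_bot_iff]
    intro k hk
    have hKn := pPrimeCore_two_normal Γ
    have hKo := odd_card_pPrimeCore_two Γ
    have hko : Odd (orderOf k) := by
      have h1 : orderOf (⟨k, hk⟩ : pPrimeCore 2 Γ) ∣ Nat.card (pPrimeCore 2 Γ) := orderOf_dvd_natCard _
      rw [Subgroup.orderOf_mk] at h1
      exact Odd.of_dvd_nat hKo h1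
    obtain ⟨g, rfl⟩ := hq k hko
    have h1 : (pPrimeCore 2 Γ).comap ι ≤ pPrimeCore 2 G := by
      apply le_sSup
      refine ⟨hKn.comap ι, ?_⟩
      have h3 := Subgroup.card_comap_dvd_of_injective (pPrimeCore 2 Γ) ι hιinj
      exact (Nat.coprime_two_right).mpr (Odd.of_dvd_nat hKo h3)
    have h3 : g ∈ pPrimeCore 2 G := h1 hk
    rw [hcore, mem_bot] at h3
    rw [h3, map_one]; exact one_mem _
  -- the Sylow subgroup
  have hS0 : IsPGroup 2 ((zpowers a ⊔ (P : Subgroup G).map ι : Subgroup Γ)) := by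
    apply IsPGroup.to_sup_of_normal_right'
    · rw [IsPGroup.iff_card]
      rw [Nat.card_zpowers]
      exact (Nat.dvd_prime_pow Nat.prime_two).mp (orderOf_dvd_of_pow_eq_one haj) |>.imp fun _ h => h.2
    · exact P.2.map ι
    · rw [zpowers_le, mem_normalizer_iff]
      intro x
      constructor
      · rintro ⟨u, hu, rfl⟩
        exact ⟨u, hu, by rw [(hcomm u hu).eq, mul_inv_cancel_right]⟩
      · rintro ⟨u, hu, h⟩
        refine ⟨u, hu, ?_⟩
        have h5 : x = a⁻¹ * ι u * a := by rw [h]; group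
        rw [h5, mul_assoc, ← (hcomm u hu).eq, inv_mul_cancel_left]
  obtain ⟨S, hS⟩ := hS0.exists_le_sylow
  have haS : a ∈ S := hS (mem_sup_left (mem_zpowers a))
  have hPS : ∀ u ∈ (P : Subgroup G), ι u ∈ S := fun u hu => hS (mem_sup_right ⟨u, hu, rfl⟩)
  have hSdec : ∀ x ∈ S, ∃ u ∈ (P : Subgroup G), ∃ n : ℤ, x = ι u * a ^ n := by
    intro x hx
    obtain ⟨g, n, rfl⟩ := hdec x
    refine ⟨g, ?_, n, rfl⟩
    have h1 : ι g ∈ S := by
      have := S.mul_mem hx (S.zpow_mem haS (-n))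
      rwa [mul_assoc, ← zpow_add, add_neg_cancel, zpow_zero, mul_one] at this
    have h3 : IsPGroup 2 ((S : Subgroup Γ).comap ι) := S.2.comap_of_injective ι hιinj
    have h4 : (P : Subgroup G) ≤ (S : Subgroup Γ).comap ι := fun u hu => hPS u hu
    have h5 := P.is_maximal' h3 h4
    rw [← h5]; exact h1
  haveI hSab : IsMulCommutative (S : Subgroup Γ) := by
    refine ⟨⟨fun x y => Subtype.ext ?_⟩⟩
    obtain ⟨u, hu, n, hx⟩ := hSdec x x.2
    obtain ⟨v, hv, m, hy⟩ := hSdec y y.2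
    have huv : Commute (ι u) (ι v) := by
      have := hab.is_comm.comm ⟨u, hu⟩ ⟨v, hv⟩
      have h1 : u * v = v * u := congrArg Subtype.val this
      show ι u * ι v = ι v * ι u
      rw [← map_mul, ← map_mul, h1]
    have h6 : Commute (ι u * a ^ n) (ι v * a ^ m) := by
      apply Commute.mul_left
      · exact Commute.mul_right huv ((hcomm u hu).symm.zpow_right m)
      · exact Commute.mul_right ((hcomm v hv).zpow_left n) ((Commute.refl a).zpow_zpow n m)
    simp only [Subgroup.coe_mul]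
    rw [hx, hy]; exact h6.eq
  -- the norm
  obtain ⟨c, hcS, hcinv, m, hm, hcm⟩ := exists_norm S a haS ι.range (by
    intro n _
    obtain ⟨g, k, rfl⟩ := hdec n
    have h1 : ι g * a ^ k * a * (ι g * a ^ k)⁻¹ * a⁻¹ = ι g * (a * ι g * a⁻¹)⁻¹ := by
      have h3 : a ^ k * a * (a ^ k)⁻¹ = a := by
        rw [← zpow_add_one, ← zpow_neg, ← zpow_add]; simp
      calc ι g * a ^ k * a * (ι g * a ^ k)⁻¹ * a⁻¹
          = ι g * (a ^ k * a * (a ^ k)⁻¹) * (ι g)⁻¹ * a⁻¹ := by group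
        _ = ι g * (a * ι g * a⁻¹)⁻¹ := by rw [h3]; group
    rw [h1, hconj]
    exact ι.range.mul_mem ⟨g, rfl⟩ (ι.range.inv_mem ⟨_, rfl⟩))
  have hc1 := eq_one_of_invariant S hcoreΓ hZΓ c hcS hcinv
  rw [hc1, one_mul] at hcm
  have ham : a ^ m ∈ ι.range := by simpa using ι.range.inv_mem hcm
  have hmem : a ∈ ι.range := by
    rw [← QuotientGroup.eq_one_iff] at ham ⊢
    rw [QuotientGroup.mk_pow] at ham
    have h1 : (a : Γ ⧸ ι.range) ^ (2 ^ j) = 1 := by rw [← QuotientGroup.mk_pow, haj]; rfl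
    have hcop : Nat.Coprime (2 ^ j) m :=
      Nat.Coprime.pow_left j ((Nat.Prime.coprime_iff_not_dvd Nat.prime_two).mpr hm)
    exact eq_one_of_pow_coprime hcop h1 ham
  obtain ⟨g, hg⟩ := hmem
  refine ⟨g, fun x => ?_⟩
  rw [← hι g x, hg]

end Cfsg.Agent.Tr.ZAut
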